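import Cfsg.Agent.H898.J3Cent
import Cfsg.Agent.J3Type.Chain
import Cfsg.Agent.J3Type.HasModelOf
import Cfsg.Prelude.Def_Transfer

/-!
# Groups of `J₃`-type: `2^{1+4}` complemented by `A₅` (helper898)
-/

set_option autoImplicit false
set_option linter.unusedSectionVars false

namespace Cfsg.Agent.H898.J3Final

open Cfsg Cfsg.Spor Subgroup Cfsg.Agent.H898.J3Cent

/-! ### The complement acts faithfully -/

section faith

variable {C : Type*} [Group C] [Finite C]

theorem eA_card {A : Type*} [Group A] (eA : A ≃* ↥(alternatingGroup (Fin 5))) : Nat.card A = 60 := by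
  rw [Nat.card_congr eA.toEquiv, Nat.card_eq_fintype_card]
  rfl

theorem simple_A {A : Type*} [Group A] (eA : A ≃* ↥(alternatingGroup (Fin 5))) : IsSimpleGroup A := by
  have : IsSimpleGroup ↥(alternatingGroup (Fin 5)) := alternatingGroup.isSimpleGroup (by rw [Nat.card_fin])
  exact (MulEquiv.isSimpleGroup_congr eA).2 this

/-- either `C_C(E) ≤ E` or `A` centralizes `E` -/
theorem dichotomy (E A : Subgroup C) [E.Normal] (hE32 : Nat.card ↥E = 32)
    (hEA : E.IsComplement' A) (eA : ↥A ≃* ↥(alternatingGroup (Fin 5))) :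
    centralizer (E : Set C) ≤ E ∨ ∀ a ∈ A, ∀ x ∈ E, a * x = x * a := by
  have hs := simple_A eA
  have h60 := eA_card eA
  by_cases hD : centralizer (E : Set C) ≤ E
  · exact Or.inl hD
  right
  -- the image of `C_C(E)` in `C / E` is normal and not trivial
  let ψ : C →* C ⧸ E := QuotientGroup.mk' E
  have eQ : C ⧸ E ≃* ↥A := hEA.symm.QuotientMulEquiv
  have hsQ : IsSimpleGroup (C ⧸ E) := (MulEquiv.isSimpleGroup_congr eQ).2 hs
  have hn : ((centralizer (E : Set C)).map ψ).Normal :=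
    Subgroup.Normal.map inferInstance ψ (QuotientGroup.mk'_surjective E)
  have htop : (centralizer (E : Set C)).map ψ = ⊤ := by
    rcases hn.eq_bot_or_eq_top with h | h
    · exfalso
      apply hD
      intro x hx
      have h1 : ψ x ∈ (centralizer (E : Set C)).map ψ := ⟨x, hx, rfl⟩
      rw [h, mem_bot] at h1
      exact (QuotientGroup.eq_one_iff x).1 h1
    · exact h
  -- the action of `A` on `E` is by inner automorphisms
  let φ : ↥A →* MulAut ↥E := (MulAut.conjNormal (H := E)).comp A.subtype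
  have hφ : ∀ (a : ↥A) (x : ↥E), ((φ a x : ↥E) : C) = a * x * (a : C)⁻¹ := fun a x => rfl
  have hinn : ∀ a : ↥A, φ a ∈ (MulAut.conj : ↥E →* MulAut ↥E).range := by
    intro a
    have h1 : ψ (a : C) ∈ (centralizer (E : Set C)).map ψ := by rw [htop]; trivial
    obtain ⟨d, hd, h2⟩ := h1
    have h3 : (a : C) * d⁻¹ ∈ E := by
      rw [← QuotientGroup.eq_one_iff]
      show ψ ((a : C) * d⁻¹) = 1
      rw [map_mul, map_inv, h2, mul_inv_cancel]
    refine ⟨⟨(a : C) * d⁻¹, h3⟩, ?_⟩
    ext x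
    show ((a : C) * d⁻¹) * x * ((a : C) * d⁻¹)⁻¹ = _
    rw [hφ]
    have h4 : (x : C) * d = d * x := mem_centralizer_iff.1 hd x x.2
    calc ((a : C) * d⁻¹) * x * ((a : C) * d⁻¹)⁻¹ = (a : C) * (d⁻¹ * (x * d)) * (a : C)⁻¹ := by group
      _ = (a : C) * x * (a : C)⁻¹ := by rw [h4]; group
  have hker : φ.ker = ⊤ := by
    rcases (inferInstance : φ.ker.Normal).eq_bot_or_eq_top with h | h
    · exfalso
      have hinj : Function.Injective φ := (MonoidHom.ker_eq_bot_iff φ).1 h
      have h1 : φ.range ≤ (MulAut.conj : ↥E →* MulAut ↥E).range := by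
        rintro _ ⟨a, rfl⟩; exact hinn a
      have h2 : Nat.card ↥φ.range = 60 := by
        rw [← Nat.card_congr (MonoidHom.ofInjective hinj).toEquiv, h60]
      have h3 := card_le_of_le h1
      have h4 : Nat.card ↥(MulAut.conj : ↥E →* MulAut ↥E).range ≤ 32 := by
        rw [← hE32]
        exact Nat.card_le_card_of_surjective _ (MonoidHom.rangeRestrict_surjective _)
      omega
    · exact h
  intro a ha x hx
  have h1 : (⟨a, ha⟩ : ↥A) ∈ φ.ker := by rw [hker]; trivial
  have h2 := congrArg (fun f : MulAut ↥E => ((f ⟨x, hx⟩ : ↥E) : C)) (MonoidHom.mem_ker.1 h1)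
  have h3 : a * x * a⁻¹ = x := h2
  calc a * x = a * x * a⁻¹ * a := by group
    _ = x * a := by rw [h3]

end faith

/-! ### The direct product is impossible -/

section direct

variable {G : Type*} [Group G] [Finite G]

theorem no_direct (hone : ∀ x y : G, orderOf x = 2 → orderOf y = 2 → IsConj x y)
    (t : G) (ht : orderOf t = 2) (C : Subgroup G) (hCdef : C = Subgroup.centralizer ({t} : Set G))
    (E A : Subgroup ↥C) (hE : Cfsg.IsExtraspecial 2 ↥E) (hE32 : Nat.card ↥E = 32) (hEA : E.IsComplement' A)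
    (eA : ↥A ≃* ↥(alternatingGroup (Fin 5))) (hc : ∀ a ∈ A, ∀ x ∈ E, a * x = x * a) : False := by
  have h2p : Fact (Nat.Prime 2) := ⟨Nat.prime_two⟩
  have hs := simple_A eA
  have h60 := eA_card eA
  have htC : t ∈ C := by rw [hCdef]; exact mem_centralizer_singleton_iff.2 rfl
  have hCm : ∀ {c : G}, c ∈ C → c * t = t * c := by
    intro c hc'
    rw [hCdef] at hc'
    exact mem_centralizer_singleton_iff.1 hc'
  let tc : ↥C := ⟨t, htC⟩
  have htc : ∀ c : ↥C, tc * c = c * tc := by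
    intro c
    apply Subtype.ext
    exact (hCm c.2).symm
  have hcardC : Nat.card ↥C = 1920 := by
    have h1 := hEA.card_mul_card
    rw [hE32, h60] at h1
    rw [← h1]
  -- every element of `C` is a product
  have hprod : ∀ c : ↥C, ∃ x ∈ E, ∃ a ∈ A, c = x * a := by
    intro c
    obtain ⟨⟨x, a⟩, h⟩ := hEA.2 c
    exact ⟨x, x.2, a, a.2, h.symm⟩
  have hdis : ∀ x ∈ E, x ∈ A → x = 1 := fun x hx hx' => by
    have h1 := hEA.disjoint.le_bot ⟨hx, hx'⟩
    exact mem_bot.1 h1
  -- the centre of `A` is trivial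
  have hZA : ∀ a ∈ A, (∀ b ∈ A, a * b = b * a) → a = 1 := by
    intro a ha hab
    rcases (inferInstance : (center ↥A).Normal).eq_bot_or_eq_top with h | h
    · have h1 : (⟨a, ha⟩ : ↥A) ∈ center ↥A := by
        rw [mem_center_iff]
        intro g
        exact Subtype.ext (hab g g.2).symm
      rw [h, mem_bot] at h1
      exact congrArg Subtype.val h1
    · exfalso
      have h1 : ∀ x y : ↥(alternatingGroup (Fin 5)), x * y = y * x := by
        intro x y
        have h2 : eA.symm y ∈ center ↥A := by rw [h]; trivial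
        have h3 := mem_center_iff.1 h2 (eA.symm x)
        have h4 := congrArg eA h3
        rwa [map_mul, map_mul, eA.apply_symm_apply, eA.apply_symm_apply] at h4
      exact absurd h1 (by decide +kernel)
  -- `t ∈ E`
  have htE : tc ∈ E := by
    obtain ⟨x, hx, a, ha, h⟩ := hprod tc
    have h1 : a = 1 := by
      apply hZA a ha
      intro b hb
      have h2 := htc b
      rw [h] at h2
      have h3 := hc b hb x hx
      have h4 : x * (a * b) = x * (b * a) := by
        calc x * (a * b) = x * a * b := by group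
          _ = b * (x * a) := h2
          _ = (b * x) * a := by group
          _ = x * (b * a) := by rw [h3]; group
      exact mul_left_cancel h4
    rw [h, h1, mul_one]; exact hx
  -- `Z(E) = {1, t}`
  obtain ⟨⟨-, -, hcom⟩, hZ2⟩ := hE
  have hZE : ∀ x ∈ E, (∀ y ∈ E, x * y = y * x) → x = 1 ∨ x = tc := by
    intro x hx hxy
    have h1 : (⟨x, hx⟩ : ↥E) ∈ center ↥E := by
      rw [mem_center_iff]; intro g; exact Subtype.ext (hxy g g.2).symm
    have h2 : (⟨tc, htE⟩ : ↥E) ∈ center ↥E := by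
      rw [mem_center_iff]; intro g; exact Subtype.ext (htc g).symm
    have h3 : (⟨⟨tc, htE⟩, h2⟩ : ↥(center ↥E)) ≠ 1 := by
      intro h
      have h4 : tc = 1 := congrArg (fun z : ↥(center ↥E) => ((z : ↥E) : ↥C)) h
      have h5 : t = 1 := congrArg Subtype.val h4
      rw [h5, orderOf_one] at ht
      norm_num at ht
    by_contra hne
    push Not at hne
    have h4 : (⟨⟨x, hx⟩, h1⟩ : ↥(center ↥E)) ≠ 1 := fun h =>
      hne.1 (congrArg (fun z : ↥(center ↥E) => ((z : ↥E) : ↥C)) h)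
    obtain ⟨u, -, hu⟩ := (Nat.card_eq_two_iff' (1 : ↥(center ↥E))).1 hZ2
    have h5 := (hu _ h4).trans (hu _ h3).symm
    exact hne.2 (congrArg (fun z : ↥(center ↥E) => ((z : ↥E) : ↥C)) h5)
  -- commutators of `E`
  have hcomE : ∀ x ∈ E, ∀ y ∈ E, x * y * x⁻¹ * y⁻¹ = 1 ∨ x * y * x⁻¹ * y⁻¹ = tc := by
    intro x hx y hy
    have hm : x * y * x⁻¹ * y⁻¹ ∈ E := mul_mem (mul_mem (mul_mem hx hy) (inv_mem hx)) (inv_mem hy)
    apply hZE _ hm
    intro z hz
    have h1 : (⟨x, hx⟩ : ↥E) * ⟨y, hy⟩ * (⟨x, hx⟩ : ↥E)⁻¹ * (⟨y, hy⟩ : ↥E)⁻¹ ∈ commutator ↥E := by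
      rw [_root_.commutator_def]
      exact commutator_mem_commutator (mem_top _) (mem_top _)
    rw [hcom] at h1
    exact (congrArg Subtype.val (mem_center_iff.1 h1 ⟨z, hz⟩)).symm
  have hncE : ∃ x ∈ E, ∃ y ∈ E, x * y * x⁻¹ * y⁻¹ = tc := by
    by_contra hne
    push Not at hne
    have h1 : commutator ↥E = ⊥ := by
      rw [_root_.commutator_def, eq_bot_iff, commutator_le]
      intro x _ y _
      rw [mem_bot]
      have h2 := (hcomE x x.2 y y.2).resolve_right (hne x x.2 y y.2)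
      exact Subtype.ext h2
    rw [h1] at hcom
    rw [← hcom, card_bot] at hZ2
    norm_num at hZ2
  -- a Sylow 2-subgroup of `A`
  obtain ⟨V⟩ : Nonempty (Sylow 2 ↥A) := inferInstance
  have hVc : Nat.card ↥(V : Subgroup ↥A) = 4 := by
    rw [V.card_eq_multiplicity, h60, show (60 : ℕ) = 2 ^ 2 * 15 by norm_num,
      Nat.factorization_mul (by norm_num) (by norm_num), Finsupp.add_apply, Nat.prime_two.factorization_pow,
      Finsupp.single_eq_same, Nat.factorization_eq_zero_of_not_dvd (by norm_num)]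
    norm_num
  have hVab : ∀ u ∈ (V : Subgroup ↥A), ∀ v ∈ (V : Subgroup ↥A), u * v = v * u := by
    intro u hu v hv
    have h1 : IsMulCommutative ↥(V : Subgroup ↥A) := IsPGroup.isMulCommutative_of_card_eq_prime_sq (p := 2)
      (by rw [hVc]; norm_num)
    exact congrArg Subtype.val (h1.1.comm (⟨u, hu⟩ : ↥(V : Subgroup ↥A)) ⟨v, hv⟩)
  -- the subgroup `S = E V` of `G`
  let VC : Subgroup ↥C := (V : Subgroup ↥A).map A.subtype
  have hVA : ∀ v ∈ VC, v ∈ A := by rintro _ ⟨v, -, rfl⟩; exact v.2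
  have hVCab : ∀ u ∈ VC, ∀ v ∈ VC, u * v = v * u := by
    rintro _ ⟨u, hu, rfl⟩ _ ⟨v, hv, rfl⟩
    exact congrArg Subtype.val (hVab u hu v hv)
  let S0 : Subgroup ↥C :=
    { carrier := {c | ∃ x ∈ E, ∃ v ∈ VC, c = x * v}
      mul_mem' := by
        rintro _ _ ⟨x, hx, v, hv, rfl⟩ ⟨y, hy, w, hw, rfl⟩
        refine ⟨x * y, mul_mem hx hy, v * w, mul_mem hv hw, ?_⟩
        calc x * v * (y * w) = x * (v * y) * w := by group
          _ = x * y * (v * w) := by rw [hc v (hVA v hv) y hy]; group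
      one_mem' := ⟨1, one_mem _, 1, one_mem _, by rw [mul_one]⟩
      inv_mem' := by
        rintro _ ⟨x, hx, v, hv, rfl⟩
        refine ⟨x⁻¹, inv_mem hx, v⁻¹, inv_mem hv, ?_⟩
        rw [mul_inv_rev, hc _ (hVA _ (inv_mem hv)) _ (inv_mem hx)] }
  have hcardS0 : Nat.card ↥S0 = 128 := by
    let f : ↥E × ↥VC → ↥S0 := fun p => ⟨p.1 * p.2, p.1, p.1.2, p.2, p.2.2, rfl⟩
    have hf : Function.Bijective f := by
      constructor
      · rintro ⟨x, v⟩ ⟨y, w⟩ h
        have h1 : (x : ↥C) * v = y * w := congrArg Subtype.val h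
        have h2 : (y : ↥C)⁻¹ * x = w * (v : ↥C)⁻¹ := by
          rw [eq_mul_inv_iff_mul_eq, mul_assoc, h1]; group
        have h3 : (y : ↥C)⁻¹ * x = 1 := hdis _ (mul_mem (inv_mem y.2) x.2)
          (by rw [h2]; exact mul_mem (hVA _ w.2) (inv_mem (hVA _ v.2)))
        have h4 : (x : ↥C) = y := (inv_mul_eq_one.1 h3).symm
        rw [h4] at h1
        exact Prod.ext (Subtype.ext h4) (Subtype.ext (mul_left_cancel h1))
      · rintro ⟨_, x, hx, v, hv, rfl⟩
        exact ⟨(⟨x, hx⟩, ⟨v, hv⟩), rfl⟩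
    rw [← Nat.card_eq_of_bijective f hf, Nat.card_prod, hE32]
    have h1 : Nat.card ↥VC = 4 := by
      rw [← hVc]
      exact (Nat.card_congr ((V : Subgroup ↥A).equivMapOfInjective A.subtype A.subtype_injective).toEquiv).symm
    rw [h1]
  let S : Subgroup G := S0.map C.subtype
  have hcardS : Nat.card ↥S = 128 := by
    rw [← hcardS0]
    exact (Nat.card_congr (S0.equivMapOfInjective C.subtype C.subtype_injective).toEquiv).symm
  -- `S` is a Sylow 2-subgroup of `G`
  have hSp : IsPGroup 2 ↥S := IsPGroup.of_card (n := 7) (by rw [hcardS]; norm_num)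
  obtain ⟨T, hT⟩ := hSp.exists_le_sylow
  have hTS : S = (T : Subgroup G) := by
    apply eq_of_le_of_card_ge hT
    rw [hcardS]
    -- a central involution of `T`
    have hTp := T.isPGroup'
    have hnt : Nontrivial ↥(T : Subgroup G) := by
      rw [← Finite.one_lt_card_iff_nontrivial]
      have := card_le_of_le hT
      rw [hcardS] at this
      omega
    have hcn : Nontrivial ↥(center ↥(T : Subgroup G)) := hTp.center_nontrivial
    have h2d : 2 ∣ Nat.card ↥(center ↥(T : Subgroup G)) := by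
      obtain ⟨n, hn⟩ := IsPGroup.iff_card.1 (hTp.to_subgroup (center ↥(T : Subgroup G)))
      rw [hn]
      refine dvd_pow_self 2 ?_
      rintro rfl
      rw [pow_zero] at hn
      have := Finite.one_lt_card_iff_nontrivial.2 hcn
      omega
    obtain ⟨u, hu⟩ := exists_prime_orderOf_dvd_card' (G := ↥(center ↥(T : Subgroup G))) 2 h2d
    have hu2 : orderOf ((u : ↥(T : Subgroup G)) : G) = 2 := by
      rw [Subgroup.orderOf_coe, Subgroup.orderOf_coe, hu]
    have hTu : (T : Subgroup G) ≤ centralizer ({((u : ↥(T : Subgroup G)) : G)} : Set G) := by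
      intro x hx
      rw [mem_centralizer_singleton_iff]
      exact congrArg Subtype.val (mem_center_iff.1 u.2 ⟨x, hx⟩)
    have hcu : Nat.card ↥(centralizer ({((u : ↥(T : Subgroup G)) : G)} : Set G)) = 1920 := by
      obtain ⟨g, hg⟩ := isConj_iff.1 (hone _ _ ht hu2)
      rw [← hcardC, ← hg]
      have h1 : centralizer ({g * t * g⁻¹} : Set G) = C.map (MulAut.conj g).toMonoidHom := by
        ext x
        rw [mem_centralizer_singleton_iff]
        constructor
        · intro hx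
          refine ⟨g⁻¹ * x * g, ?_, ?_⟩
          · show g⁻¹ * x * g ∈ C
            rw [hCdef, mem_centralizer_singleton_iff]
            calc g⁻¹ * x * g * t = g⁻¹ * (x * (g * t * g⁻¹)) * g := by group
              _ = t * (g⁻¹ * x * g) := by rw [hx]; group
          · show g * (g⁻¹ * x * g) * g⁻¹ = x
            group
        · rintro ⟨c, hc', rfl⟩
          have h2 : c * t = t * c := hCm hc'
          show (g * c * g⁻¹) * (g * t * g⁻¹) = (g * t * g⁻¹) * (g * c * g⁻¹)
          calc (g * c * g⁻¹) * (g * t * g⁻¹) = g * (c * t) * g⁻¹ := by group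
            _ = (g * t * g⁻¹) * (g * c * g⁻¹) := by rw [h2]; group
      rw [h1]
      exact (Nat.card_congr (C.equivMapOfInjective _ (MulAut.conj g).injective).toEquiv).symm
    have hdv : Nat.card ↥(T : Subgroup G) ∣ 1920 := by
      rw [← hcu]; exact card_dvd_of_le hTu
    obtain ⟨n, hn⟩ := IsPGroup.iff_card.1 hTp
    rw [hn] at hdv ⊢
    have hn7 : n ≤ 7 := by
      by_contra h
      have h1 : 2 ^ 8 ∣ 1920 := (pow_dvd_pow 2 (by omega)).trans hdv
      norm_num at h1
    calc 2 ^ n ≤ 2 ^ 7 := Nat.pow_le_pow_right (by norm_num) hn7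
      _ = 128 := by norm_num
  -- an involution of `V`
  obtain ⟨s, hs2⟩ := exists_prime_orderOf_dvd_card' (G := ↥(V : Subgroup ↥A)) 2 (by rw [hVc]; norm_num)
  let sc : ↥C := ((s : ↥A) : ↥C)
  have hscA : sc ∈ A := (s : ↥A).2
  have hscV : sc ∈ VC := ⟨(s : ↥A), s.2, rfl⟩
  have hsG : orderOf (sc : G) = 2 := by
    rw [Subgroup.orderOf_coe]
    show orderOf ((s : ↥A) : ↥C) = 2
    rw [Subgroup.orderOf_coe, Subgroup.orderOf_coe, hs2]
  obtain ⟨g, hg⟩ := isConj_iff.1 (hone _ _ ht hsG)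
  have hcentS : ∀ x ∈ S, x * t = t * x := by
    rintro _ ⟨x, -, rfl⟩
    exact hCm x.2
  have hcentS' : ∀ x ∈ S, x * (sc : G) = sc * x := by
    rintro _ ⟨_, ⟨x, hx, v, hv, rfl⟩, rfl⟩
    have h1 : (x * v) * sc = sc * (x * v) := by
      calc x * v * sc = x * (v * sc) := by group
        _ = x * (sc * v) := by rw [hVCab v hv sc hscV]
        _ = (x * sc) * v := by group
        _ = sc * (x * v) := by rw [← hc sc hscA x hx]; group
    exact congrArg Subtype.val h1
  have hx1 : t ∈ centralizer ((T : Subgroup G) : Set G) := by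
    rw [mem_centralizer_iff]
    intro x hx
    exact hcentS x (by rw [hTS]; exact hx)
  have hy1 : (g⁻¹)⁻¹ * t * g⁻¹ ∈ centralizer ((T : Subgroup G) : Set G) := by
    rw [inv_inv, hg, mem_centralizer_iff]
    intro x hx
    exact hcentS' x (by rw [hTS]; exact hx)
  obtain ⟨n, hn, h1⟩ := T.conj_eq_normalizer_conj_of_mem_centralizer t g⁻¹ hx1 hy1
  rw [inv_inv, hg] at h1
  -- `n` fixes `t`
  obtain ⟨x, hx, y, hy, hxy⟩ := hncE
  have hcS : ∀ p ∈ S, ∀ q ∈ S, p * q * p⁻¹ * q⁻¹ = 1 ∨ p * q * p⁻¹ * q⁻¹ = t := by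
    rintro _ ⟨_, ⟨x, hx, v, hv, rfl⟩, rfl⟩ _ ⟨_, ⟨y, hy, w, hw, rfl⟩, rfl⟩
    have e1 : (x * v) * (y * w) * (x * v)⁻¹ * (y * w)⁻¹ = x * y * x⁻¹ * y⁻¹ := by
      have a1 : v * y = y * v := hc v (hVA v hv) y hy
      have a2 : v⁻¹ * x⁻¹ = x⁻¹ * v⁻¹ := hc _ (hVA _ (inv_mem hv)) _ (inv_mem hx)
      have a3 : v * w = w * v := hVCab v hv w hw
      have a4 : w * x⁻¹ = x⁻¹ * w := hc w (hVA w hw) _ (inv_mem hx)
      have a5 : w⁻¹ * y⁻¹ = y⁻¹ * w⁻¹ := hc _ (hVA _ (inv_mem hw)) _ (inv_mem hy)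
      calc (x * v) * (y * w) * (x * v)⁻¹ * (y * w)⁻¹ = x * (v * y) * w * (v⁻¹ * x⁻¹) * (w⁻¹ * y⁻¹) := by group
        _ = x * y * (v * w) * x⁻¹ * v⁻¹ * (y⁻¹ * w⁻¹) := by rw [a1, a2, a5]; group
        _ = x * y * w * (v * x⁻¹) * v⁻¹ * (y⁻¹ * w⁻¹) := by rw [a3]; group
        _ = x * y * w * (x⁻¹ * v) * v⁻¹ * (y⁻¹ * w⁻¹) := by rw [hc v (hVA v hv) _ (inv_mem hx)]
        _ = x * y * (w * x⁻¹) * (y⁻¹ * w⁻¹) := by group
        _ = x * y * x⁻¹ * (w * y⁻¹) * w⁻¹ := by rw [a4]; group
        _ = x * y * x⁻¹ * (y⁻¹ * w) * w⁻¹ := by rw [hc w (hVA w hw) _ (inv_mem hy)]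
        _ = x * y * x⁻¹ * y⁻¹ := by group
    rcases hcomE x hx y hy with h2 | h2
    · left
      rw [← e1] at h2
      exact congrArg Subtype.val h2
    · right
      rw [← e1] at h2
      exact congrArg Subtype.val h2
  have hnS : ∀ p ∈ S, n⁻¹ * p * n ∈ S := by
    intro p hp
    rw [hTS] at hp ⊢
    have := (mem_normalizer_iff'.1 hn (n⁻¹ * p)).1
    have h2 := (mem_normalizer_iff.1 (inv_mem hn) p).1 hp
    rwa [inv_inv] at h2
  have hxS : (x : G) ∈ S := ⟨x, ⟨x, hx, 1, one_mem _, by rw [mul_one]⟩, rfl⟩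
  have hyS : (y : G) ∈ S := ⟨y, ⟨y, hy, 1, one_mem _, by rw [mul_one]⟩, rfl⟩
  have hxyG : (x : G) * y * (x : G)⁻¹ * (y : G)⁻¹ = t := congrArg Subtype.val hxy
  have h2 := hcS _ (hnS _ hxS) _ (hnS _ hyS)
  have h3 : n⁻¹ * (x : G) * n * (n⁻¹ * y * n) * (n⁻¹ * x * n)⁻¹ * (n⁻¹ * y * n)⁻¹ = n⁻¹ * t * n := by
    rw [← hxyG]; group
  rw [h3] at h2
  have h4 : (sc : G) = t := by
    rcases h2 with h2 | h2
    · exfalso
      rw [← h1] at h2
      rw [h2, orderOf_one] at hsG
      norm_num at hsG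
    · rw [h1, h2]
  have h5 : sc = tc := Subtype.ext h4
  have h6 : sc = 1 := hdis sc (by rw [h5]; exact htE) hscA
  rw [h6] at hsG
  norm_num at hsG

end direct

/-- **a group of `J₃`-type is `J₃`** -/
theorem isoJ3 {G : Type*} [Group G] [Finite G]
    (hone : ∀ x y : G, orderOf x = 2 → orderOf y = 2 → IsConj x y)
    (t : G) (ht : orderOf t = 2) (E A : Subgroup ↥(Subgroup.centralizer ({t} : Set G))) [E.Normal]
    (hE : Cfsg.IsExtraspecial 2 ↥E) (hE32 : Nat.card ↥E = 32) (hEA : E.IsComplement' A)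
    (eA : ↥A ≃* ↥(alternatingGroup (Fin 5))) : IsoJ3 G := by
  rcases dichotomy E A hE32 hEA eA with h | h
  · exact Cfsg.Agent.J3Type.Chain.isoJ3 t (Cfsg.Agent.J3Type.HasModelOf.hasModel t ht E hE hE32 h
      (hEA.symm.QuotientMulEquiv.trans eA)) hone
  · exact (no_direct hone t ht _ rfl E A hE hE32 hEA eA h).elim

/-! ### The statement -/

section fin

variable {K : Type*} [Group K] [Finite K]

/-- a self-centralizing subgroup of prime order has a cyclic normalizer quotient -/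
theorem quot {p m : ℕ} (hp : p.Prime) {X : Subgroup K} (hX : Nat.card X = p) (hC : centralizer (X : Set K) = X)
    (hN : Nat.card ↥(normalizer (X : Set K)) = p * m) :
    ∃ _ : (X.subgroupOf (normalizer (X : Set K))).Normal,
      IsCyclic (↥(normalizer (X : Set K)) ⧸ X.subgroupOf (normalizer (X : Set K))) ∧
      Nat.card (↥(normalizer (X : Set K)) ⧸ X.subgroupOf (normalizer (X : Set K))) = m := by
  have := Fact.mk hp
  have hker : (X.normalizerMonoidHom).ker = X.subgroupOf (normalizer (X : Set K)) := by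
    rw [normalizerMonoidHom_ker, hC]
  have hn : (X.subgroupOf (normalizer (X : Set K))).Normal := by
    rw [← hker]; infer_instance
  have hcX : IsCyclic ↥X := isCyclic_of_prime_card hX
  have hcyc : IsCyclic (MulAut ↥X) := by
    have : IsCyclic (ZMod (Nat.card ↥X))ˣ := by
      rw [hX]; infer_instance
    exact isCyclic_of_surjective (IsCyclic.mulAutMulEquiv ↥X).symm.toMonoidHom
      (IsCyclic.mulAutMulEquiv ↥X).symm.surjective
  refine ⟨hn, ?_, ?_⟩
  · let f : (↥(normalizer (X : Set K)) ⧸ X.subgroupOf (normalizer (X : Set K))) →* MulAut ↥X :=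
      QuotientGroup.lift _ X.normalizerMonoidHom (fun x hx => by
        rw [← hker] at hx; exact hx)
    apply isCyclic_of_injective f
    rw [injective_iff_map_eq_one]
    intro a ha
    obtain ⟨x, rfl⟩ := QuotientGroup.mk_surjective a
    have h1 : X.normalizerMonoidHom x = 1 := ha
    rw [QuotientGroup.eq_one_iff, ← hker]
    exact h1
  · have h1 := card_eq_card_quotient_mul_card_subgroup (X.subgroupOf (normalizer (X : Set K)))
    have h2 : Nat.card ↥(X.subgroupOf (normalizer (X : Set K))) = p := by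
      rw [← hX]
      exact Nat.card_congr (subgroupOfEquivOfLe (Subgroup.le_normalizer)).toEquiv
    rw [h2, hN, mul_comm] at h1
    exact (Nat.eq_of_mul_eq_mul_right hp.pos h1).symm

theorem exists_gen {p : ℕ} (hp : p.Prime) {X : Subgroup K} (hX : Nat.card X = p) :
    ∃ y : K, orderOf y = p ∧ X = zpowers y := by
  have := Fact.mk hp
  have hne : X ≠ ⊥ := by
    rintro rfl
    rw [card_bot] at hX
    exact hp.one_lt.ne hX
  obtain ⟨y, hy, hy1⟩ := X.bot_or_exists_ne_one.resolve_left hne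
  have h1 : orderOf y = p := by
    have h2 : orderOf (⟨y, hy⟩ : ↥X) ∣ p := by rw [← hX]; exact orderOf_dvd_natCard _
    rw [Subgroup.orderOf_mk] at h2
    rcases (Nat.dvd_prime hp).1 h2 with h3 | h3
    · exact absurd (orderOf_eq_one_iff.1 h3) hy1
    · exact h3
  refine ⟨y, h1, ?_⟩
  symm
  apply eq_of_le_of_card_ge
  · rw [zpowers_le]; exact hy
  · rw [Nat.card_zpowers, h1, hX]

theorem main {p m : ℕ} (hp : p.Prime) {y : K} (hy : orderOf y = p)
    (h1 : Nat.card ↥(centralizer ({y} : Set K)) = p)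
    (h2 : Nat.card ↥(normalizer ((zpowers y : Subgroup K) : Set K)) = p * m) :
    centralizer ((zpowers y : Subgroup K) : Set K) = zpowers y ∧
    ∃ _ : ((zpowers y).subgroupOf (normalizer ((zpowers y : Subgroup K) : Set K))).Normal,
      IsCyclic (↥(normalizer ((zpowers y : Subgroup K) : Set K)) ⧸
        (zpowers y).subgroupOf (normalizer ((zpowers y : Subgroup K) : Set K))) ∧
      Nat.card (↥(normalizer ((zpowers y : Subgroup K) : Set K)) ⧸
        (zpowers y).subgroupOf (normalizer ((zpowers y : Subgroup K) : Set K))) = m := by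
  have hX : Nat.card ↥(zpowers y) = p := by rw [Nat.card_zpowers, hy]
  have hC : centralizer ((zpowers y : Subgroup K) : Set K) = zpowers y := by
    symm
    apply eq_of_le_of_card_ge
    · rw [zpowers_le, centralizer_zpowers]
      exact mem_centralizer_singleton_iff.2 rfl
    · rw [centralizer_zpowers, h1, hX]
  exact ⟨hC, quot hp hX hC h2⟩

end fin

end Cfsg.Agent.H898.J3Final
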