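import Cfsg.Agent.H898.RowCo
import Cfsg.Agent.CpAut.SporThree.McL

/-!
# The row of S4329 for `McL`, `p = 3` (helper898)

An element `x` of order 11 normalising a nontrivial 3-subgroup `Q` normalises `Z(Q)`, which has order `3 ^ 5`, but the
Sylow 3-subgroups (order `3 ^ 6`) have no abelian subgroup of index 3.
-/

set_option autoImplicit false

namespace Cfsg.Agent.H898.RowMcL

open Subgroup Cfsg Cfsg.Agent.H568 Cfsg.Agent.H898.RowTool

/-! ### The number of elements of a group normalised by an element of prime order -/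

theorem dvd_card_sub_one {S : Type*} [Group S] [Finite S] {x : S} {l : ℕ} (hl : l.Prime) (hx : orderOf x = l)
    (Q : Subgroup S) (hn : x ∈ normalizer (Q : Set S)) (hcen : ∀ y ∈ Q, x * y = y * x → y = 1) :
    l ∣ Nat.card Q - 1 := by
  classical
  have : Fact l.Prime := ⟨hl⟩
  have hn' : zpowers x ≤ normalizer (Q : Set S) := by rwa [zpowers_le]
  let act : MulAction ↥(zpowers x) ↥Q :=
    { smul := fun z y => ⟨(z : S) * y * (z : S)⁻¹, (mem_normalizer_iff.1 (hn' z.2) y).1 y.2⟩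
      one_smul := fun y => Subtype.ext (by show ((1 : ↥(zpowers x)) : S) * y * ((1 : ↥(zpowers x)) : S)⁻¹ = y; simp)
      mul_smul := fun z z' y => Subtype.ext (by
        show ((z * z' : ↥(zpowers x)) : S) * y * ((z * z' : ↥(zpowers x)) : S)⁻¹ =
          (z : S) * ((z' : S) * y * (z' : S)⁻¹) * (z : S)⁻¹
        simp [mul_assoc]) }
  have hsm : ∀ (z : ↥(zpowers x)) (y : ↥Q), ((z • y : ↥Q) : S) = (z : S) * y * (z : S)⁻¹ := fun _ _ => rfl
  have hlg : IsPGroup l ↥(zpowers x) := IsPGroup.of_card (n := 1) (by rw [Nat.card_zpowers, hx, pow_one])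
  have h1 := hlg.card_modEq_card_fixedPoints (↥Q)
  have h2 : Nat.card (MulAction.fixedPoints ↥(zpowers x) ↥Q) = 1 := by
    rw [Nat.card_eq_one_iff_unique]
    refine ⟨⟨?_⟩, ⟨⟨1, ?_⟩⟩⟩
    · have h3 : ∀ y : MulAction.fixedPoints ↥(zpowers x) ↥Q, ((y : ↥Q) : S) = 1 := by
        rintro ⟨y, hy⟩
        have h4 := congrArg Subtype.val (hy ⟨x, mem_zpowers x⟩)
        rw [hsm] at h4
        have h5 : x * (y : S) = y * x := mul_inv_eq_iff_eq_mul.1 h4
        exact hcen _ y.2 h5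
      intro y y'
      exact Subtype.ext (Subtype.ext ((h3 y).trans (h3 y').symm))
    · intro z
      exact Subtype.ext (by rw [hsm]; simp)
  rw [h2] at h1
  exact (Nat.modEq_iff_dvd' Nat.card_pos).1 h1.symm

/-! ### No abelian subgroup of index three -/

section noab

variable {T : Type*} [Group T] [Finite T]

omit [Finite T] in
theorem exists_pow_mem {Q : Subgroup T} (hn : Q.Normal) (hQ : Q.index = 3) {a : T} (ha : a ∉ Q) (c : T) :
    ∃ n : ℤ, c * a ^ n ∈ Q := by
  have hc : Nat.card (T ⧸ Q) = 3 := hQ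
  have : Fact (Nat.Prime 3) := ⟨Nat.prime_three⟩
  have ha' : (QuotientGroup.mk a : T ⧸ Q) ≠ 1 := fun h => ha ((QuotientGroup.eq_one_iff a).1 h)
  have htop : zpowers (QuotientGroup.mk a : T ⧸ Q) = ⊤ := zpowers_eq_top_of_prime_card hc ha'
  have h1 : (QuotientGroup.mk c : T ⧸ Q) ∈ zpowers (QuotientGroup.mk a : T ⧸ Q) := by rw [htop]; trivial
  obtain ⟨m, hm⟩ := h1
  refine ⟨-m, ?_⟩
  rw [← QuotientGroup.eq_one_iff]
  have hm' : (QuotientGroup.mk a : T ⧸ Q) ^ m = QuotientGroup.mk c := hm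
  rw [QuotientGroup.mk_mul, QuotientGroup.mk_zpow, ← hm', ← zpow_add, add_neg_cancel, zpow_zero]

omit [Finite T] in
theorem no_ab_aux {Q : Subgroup T} (hn : Q.Normal) (hQ : Q.index = 3) (hab : ∀ u ∈ Q, ∀ v ∈ Q, u * v = v * u)
    {a a' b : T} (hab' : Commute a b) (ha'b : Commute a' b) (ha : a ∉ Q) (hb : b ∉ Q) : a * a' = a' * a := by
  obtain ⟨n, hn1⟩ := exists_pow_mem hn hQ ha a'
  obtain ⟨m, hm1⟩ := exists_pow_mem hn hQ hb a
  have h := hab _ hm1 _ hn1
  have e1 : Commute (b ^ m) a' := (ha'b.zpow_right m).symm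
  have e2 : Commute (b ^ m) (a ^ n) := ((hab'.zpow_right m).zpow_left n).symm
  have e3 : Commute a (a ^ n) := (Commute.refl a).zpow_right n
  have h1 : a * b ^ m * (a' * a ^ n) = a * a' * (a ^ n * b ^ m) := by
    calc a * b ^ m * (a' * a ^ n) = a * (b ^ m * a') * a ^ n := by group
      _ = a * (a' * b ^ m) * a ^ n := by rw [e1.eq]
      _ = a * a' * (b ^ m * a ^ n) := by group
      _ = a * a' * (a ^ n * b ^ m) := by rw [e2.eq]
  have h2 : a' * a ^ n * (a * b ^ m) = a' * a * (a ^ n * b ^ m) := by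
    calc a' * a ^ n * (a * b ^ m) = a' * (a ^ n * a) * b ^ m := by group
      _ = a' * (a * a ^ n) * b ^ m := by rw [e3.eq]
      _ = a' * a * (a ^ n * b ^ m) := by group
  rw [h1, h2] at h
  exact mul_right_cancel h

theorem no_ab (hT : IsPGroup 3 T) {Q : Subgroup T} (hQ : Q.index = 3) (hab : ∀ u ∈ Q, ∀ v ∈ Q, u * v = v * u)
    {A B C D : T} (hAC : Commute A C) (hAD : Commute A D) (hBC : Commute B C) (hBD : Commute B D)
    (hAB : A * B ≠ B * A) (hCD : C * D ≠ D * C) : False := by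
  have : Fact (Nat.Prime 3) := ⟨Nat.prime_three⟩
  obtain ⟨k, hk⟩ := IsPGroup.iff_card.1 hT
  have hk0 : k ≠ 0 := by
    rintro rfl
    have h1 := Q.card_mul_index
    rw [hk, hQ, pow_zero] at h1
    omega
  have hn : Q.Normal := by
    apply Subgroup.normal_of_index_eq_minFac_card
    rw [hQ, hk, Nat.Prime.pow_minFac Nat.prime_three hk0]
  -- `b ∈ {C, D}` outside `Q`
  obtain ⟨b, hAb, hBb, hb⟩ : ∃ b, Commute A b ∧ Commute B b ∧ b ∉ Q := by
    by_cases hC : C ∈ Q
    · exact ⟨D, hAD, hBD, fun hD => hCD (hab _ hC _ hD)⟩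
    · exact ⟨C, hAC, hBC, hC⟩
  by_cases hA : A ∈ Q
  · have hB : B ∉ Q := fun hB => hAB (hab _ hA _ hB)
    exact hAB (no_ab_aux hn hQ hab hBb hAb hB hb).symm
  · exact hAB (no_ab_aux hn hQ hab hAb hBb hA hb)

end noab

/-! ### The Sylow 3-subgroup of `McL` -/

section model

open Cfsg.Agent.SporadicStructure.PermChain Cfsg.Agent.McLType.Chain Cfsg.Agent.McLType.X275
  Cfsg.Agent.McLType.Gens Cfsg.Agent.McLType.Model Cfsg.Agent.McLType.ThreeElts
open Cfsg.Agent.CpAut.SporThree.McLBig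

theorem e1 : π 0 * (π 1 * π 2) = (π 1 * π 2) * π 0 := by
  have h := eq_of_eqB (show eqB [0, 1, 2] [1, 2, 0] = true by decide +kernel)
  simpa [mul_assoc] using h

theorem e2 : π 0 * π 5 = π 5 * π 0 := by
  have h := eq_of_eqB (show eqB [0, 5] [5, 0] = true by decide +kernel)
  simpa [mul_assoc] using h

theorem e3 : π 2 * (π 1 * π 2) = (π 1 * π 2) * π 2 := by
  have h := eq_of_eqB (show eqB [2, 1, 2] [1, 2, 2] = true by decide +kernel)
  simpa [mul_assoc] using h

theorem e4 : π 2 * π 5 = π 5 * π 2 := by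
  have h := eq_of_eqB (show eqB [2, 5] [5, 2] = true by decide +kernel)
  simpa [mul_assoc] using h

theorem ne_of_eval {l m : List ℕ} (hl : ∀ s ∈ l, s < 6) (hm : ∀ s ∈ m, s < 6)
    (h : Nat.beq (evalWord 9 pt l 1) (evalWord 9 pt m 1) = false ∨ Nat.beq (evalWord 9 pt l 2) (evalWord 9 pt m 2) = false) :
    (l.map π).prod ≠ (m.map π).prod := by
  intro he
  rcases h with h | h
  · have h1 := evalπ l hl 1
    have h2 := evalπ m hm 1
    rw [he, h2] at h1
    rw [show ((1 : Fin 275) : ℕ) = 1 from rfl] at h1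
    rw [h1] at h
    simp at h
  · have h1 := evalπ l hl 2
    have h2 := evalπ m hm 2
    rw [he, h2] at h1
    rw [show ((2 : Fin 275) : ℕ) = 2 from rfl] at h1
    rw [h1] at h
    simp at h

theorem n1 : π 0 * π 2 ≠ π 2 * π 0 := by
  have h := ne_of_eval (l := [0, 2]) (m := [2, 0]) (by decide) (by decide) (by decide +kernel)
  simpa [mul_assoc] using h

theorem n2 : (π 1 * π 2) * π 5 ≠ π 5 * (π 1 * π 2) := by
  have h := ne_of_eval (l := [1, 2, 5]) (m := [5, 1, 2]) (by decide) (by decide) (by decide +kernel)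
  simpa [mul_assoc] using h

/-- The property of the Sylow 3-subgroups. -/
def Quad {K : Type*} [Group K] (T : Subgroup K) : Prop := ∃ A ∈ T, ∃ B ∈ T, ∃ C ∈ T, ∃ D ∈ T,
  Commute A C ∧ Commute A D ∧ Commute B C ∧ Commute B D ∧ A * B ≠ B * A ∧ C * D ≠ D * C

theorem quad_P : Quad P := ⟨π 0, π_mem 0 (by norm_num), π 2, π_mem 2 (by norm_num), π 1 * π 2,
  P.mul_mem (π_mem 1 (by norm_num)) (π_mem 2 (by norm_num)), π 5, π_mem 5 (by norm_num), e1, e2, e3, e4, n1, n2⟩

theorem Quad.comap {K L : Type*} [Group K] [Group L] (f : K →* L) (hf : Function.Injective f) {T : Subgroup L}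
    (hT : T ≤ f.range) (h : Quad T) : Quad (T.comap f) := by
  obtain ⟨A, hA, B, hB, C, hC, D, hD, h1, h2, h3, h4, h5, h6⟩ := h
  obtain ⟨a, rfl⟩ := hT hA
  obtain ⟨b, rfl⟩ := hT hB
  obtain ⟨c, rfl⟩ := hT hC
  obtain ⟨d, rfl⟩ := hT hD
  have key : ∀ {x y : K}, Commute (f x) (f y) → Commute x y := fun {x y} hxy => hf (by rw [map_mul, map_mul]; exact hxy)
  exact ⟨a, hA, b, hB, c, hC, d, hD, key h1, key h2, key h3, key h4, fun h => h5 (by rw [← map_mul, h, map_mul]),
    fun h => h6 (by rw [← map_mul, h, map_mul])⟩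

theorem Quad.map {K L : Type*} [Group K] [Group L] (f : K →* L) (hf : Function.Injective f) {T : Subgroup K}
    (h : Quad T) : Quad (T.map f) := by
  obtain ⟨A, hA, B, hB, C, hC, D, hD, h1, h2, h3, h4, h5, h6⟩ := h
  exact ⟨f A, ⟨A, hA, rfl⟩, f B, ⟨B, hB, rfl⟩, f C, ⟨C, hC, rfl⟩, f D, ⟨D, hD, rfl⟩, h1.map f, h2.map f, h3.map f,
    h4.map f, fun h => h5 (hf (by rw [map_mul, map_mul, h])), fun h => h6 (hf (by rw [map_mul, map_mul, h]))⟩

theorem card_comap : Nat.card (P.comap ψ) = 729 := by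
  have h2 : (P.comap ψ).map ψ = P := by
    rw [Subgroup.map_comap_eq_self]
    intro y hy
    obtain ⟨g, hg⟩ := mem_K0_iff.1 (P_le_K0 hy)
    exact ⟨g, hg⟩
  rw [← card_P, ← h2, Subgroup.comap_map_eq_self_of_injective ψ_injective]
  exact Nat.card_congr ((P.comap ψ).equivMapOfInjective ψ ψ_injective).toEquiv

theorem quad_comap : Quad (P.comap ψ) := quad_P.comap ψ ψ_injective (by
  intro y hy
  obtain ⟨g, hg⟩ := mem_K0_iff.1 (P_le_K0 hy)
  exact ⟨g, hg⟩)

theorem exists_quad {K : Type*} [Group K] (h : Spor.IsoMcL K) : ∃ T : Subgroup K, Nat.card T = 729 ∧ Quad T := by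
  obtain ⟨e⟩ := h
  obtain ⟨e'⟩ := McLType.X275.isoMcL_G1
  let f : G1 →* K := ((e'.trans e.symm).toMonoidHom)
  have hf : Function.Injective f := (e'.trans e.symm).injective
  exact ⟨(P.comap ψ).map f, by rw [Subgroup.card_map_of_injective hf, card_comap], quad_comap.map f hf⟩

end model

/-- there is no abelian subgroup of order `3 ^ 5` -/
theorem no_abelian {K : Type*} [Group K] [Finite K] (h : Spor.IsoMcL K) (Z : Subgroup K) (hZ : Nat.card Z = 243)
    (hab : ∀ u ∈ Z, ∀ v ∈ Z, u * v = v * u) : False := by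
  have h3 : Fact (Nat.Prime 3) := ⟨Nat.prime_three⟩
  have hc := Cfsg.Agent.NotCT.Orders.mcl h
  obtain ⟨T, hT, hq⟩ := exists_quad h
  have hfac : (Nat.card K).factorization 3 = 6 := by
    rw [hc, show (898128000 : ℕ) = 3 ^ 6 * 1232000 by norm_num, Nat.factorization_mul (by norm_num) (by norm_num),
      Finsupp.add_apply, Nat.factorization_pow, Finsupp.smul_apply, Nat.Prime.factorization_self Nat.prime_three,
      Nat.factorization_eq_zero_of_not_dvd (by norm_num)]
    rfl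
  let S : Sylow 3 K := Sylow.ofCard T (by rw [hT, hfac]; norm_num)
  have hS : (S : Subgroup K) = T := rfl
  obtain ⟨R, hR⟩ := (IsPGroup.of_card (p := 3) (n := 5) (G := Z) (by rw [hZ]; norm_num)).exists_le_sylow
  obtain ⟨g, hg⟩ := MulAction.exists_smul_eq K S R
  have hqR : Quad (R : Subgroup K) := by
    have h1 : (R : Subgroup K) = T.map (MulAut.conj g).toMonoidHom := by
      rw [← hg]; rfl
    rw [h1]
    exact hq.map _ (MulAut.conj g).injective
  have hRc : Nat.card (R : Subgroup K) = 729 := by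
    rw [R.card_eq_multiplicity, hfac]; norm_num
  obtain ⟨A, hA, B, hB, C, hC, D, hD, h1, h2, h3, h4, h5, h6⟩ := hqR
  have lift : ∀ {x y : K} (hx : x ∈ (R : Subgroup K)) (hy : y ∈ (R : Subgroup K)), Commute x y →
      Commute (⟨x, hx⟩ : ↥(R : Subgroup K)) ⟨y, hy⟩ := fun hx hy hxy => Subtype.ext hxy
  refine no_ab (T := ↥(R : Subgroup K)) R.2 (Q := Z.subgroupOf (R : Subgroup K)) ?_ ?_ (A := ⟨A, hA⟩) (B := ⟨B, hB⟩)
    (C := ⟨C, hC⟩) (D := ⟨D, hD⟩) (lift _ _ h1) (lift _ _ h2) (lift _ _ h3) (lift _ _ h4)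
    (fun h => h5 (congrArg Subtype.val h)) (fun h => h6 (congrArg Subtype.val h))
  · have h7 := (Z.subgroupOf (R : Subgroup K)).card_mul_index
    have h8 : Nat.card ↥(Z.subgroupOf (R : Subgroup K)) = 243 := by
      rw [← hZ]
      exact Nat.card_congr (Subgroup.subgroupOfEquivOfLe hR).toEquiv
    rw [h8, hRc] at h7
    omega
  · intro u hu v hv
    exact Subtype.ext (hab _ (mem_subgroupOf.1 hu) _ (mem_subgroupOf.1 hv))

theorem row_mcl3 {K : Type*} [Group K] [Finite K] [IsSimpleGroup K] (h : Spor.IsoMcL K) (hOI : OI' K) : Row 3 K := by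
  have h3 : Fact (Nat.Prime 3) := ⟨Nat.prime_three⟩
  have hc := Cfsg.Agent.NotCT.Orders.mcl h
  have hna : ¬ IsMulCommutative K := hna_of_card (by rw [hc]; norm_num) (by rw [hc]; norm_num)
  have h11 : Fact (Nat.Prime 11) := ⟨by norm_num⟩
  obtain ⟨x, hx⟩ := exists_prime_orderOf_dvd_card' 11 (show 11 ∣ Nat.card K by rw [hc]; norm_num)
  have hcen : ∀ y : K, orderOf y = 3 → x * y ≠ y * x := by
    obtain ⟨e⟩ := h
    exact fun y hy => RowCo.not_comm_congr e (RowCo.mcl_eleven (Or.inl rfl)) x y hx hy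
  refine row_of_noNorm hna hOI h3 (by norm_num) (x := x) ?_
  intro Q hQ hn
  by_contra hb
  -- the centre of `Q`
  set Z : Subgroup K := (center Q).map Q.subtype with hZdef
  have hZp : IsPGroup 3 Z := (hQ.to_subgroup (center Q)).map Q.subtype
  have hab : ∀ u ∈ Z, ∀ v ∈ Z, u * v = v * u := by
    rintro _ ⟨u, hu, rfl⟩ _ ⟨v, -, rfl⟩
    exact congrArg Subtype.val (mem_center_iff.1 hu v).symm
  have hnZ : x ∈ normalizer (Z : Set K) := by
    have key : ∀ g ∈ normalizer (Q : Set K), ∀ z ∈ Z, g * z * g⁻¹ ∈ Z := by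
      rintro g hg _ ⟨z, hz, rfl⟩
      have hgz : g * (z : K) * g⁻¹ ∈ Q := (mem_normalizer_iff.1 hg _).1 z.2
      refine ⟨⟨_, hgz⟩, ?_, rfl⟩
      rw [SetLike.mem_coe, mem_center_iff]
      intro w
      apply Subtype.ext
      show (w : K) * (g * z * g⁻¹) = g * z * g⁻¹ * w
      have hw : g⁻¹ * (w : K) * g ∈ Q := by
        have := (mem_normalizer_iff.1 (inv_mem hg) (w : K)).1 w.2
        rwa [inv_inv] at this
      have h1 : (g⁻¹ * (w : K) * g) * z = z * (g⁻¹ * (w : K) * g) :=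
        congrArg Subtype.val (mem_center_iff.1 hz ⟨_, hw⟩)
      calc (w : K) * (g * z * g⁻¹) = g * ((g⁻¹ * (w : K) * g) * z) * g⁻¹ := by group
        _ = g * (z * (g⁻¹ * (w : K) * g)) * g⁻¹ := by rw [h1]
        _ = g * z * g⁻¹ * w := by group
    rw [mem_normalizer_iff]
    intro z
    refine ⟨key x hn z, fun hz => ?_⟩
    have := key x⁻¹ (inv_mem hn) _ hz
    have e : x⁻¹ * (x * z * x⁻¹) * x⁻¹⁻¹ = z := by group
    rwa [e] at this
  have hZb : Z ≠ ⊥ := by
    intro hZb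
    have hnt : Nontrivial Q := (Subgroup.nontrivial_iff_ne_bot Q).2 hb
    have h1 : Nontrivial (center Q) := hQ.center_nontrivial
    rw [hZdef, Subgroup.map_eq_bot_iff_of_injective _ Q.subtype_injective] at hZb
    exact (Subgroup.nontrivial_iff_ne_bot _).1 h1 hZb
  obtain ⟨k, hk⟩ := IsPGroup.iff_card.1 hZp
  have hk0 : k ≠ 0 := by
    rintro rfl
    rw [pow_zero, Subgroup.card_eq_one] at hk
    exact hZb hk
  have hdvd : 3 ^ k ∣ 898128000 := by
    rw [← hk, ← hc]
    exact Subgroup.card_subgroup_dvd_card Z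
  have hk6 : k ≤ 6 := by
    by_contra hcon
    push Not at hcon
    have h1 : 3 ^ 7 ∣ 898128000 := (pow_dvd_pow 3 hcon).trans hdvd
    norm_num at h1
  have h11' : 11 ∣ 3 ^ k - 1 := by
    rw [← hk]
    refine dvd_card_sub_one (by norm_num) hx Z hnZ ?_
    intro y hy hxy
    by_contra hne
    -- an element of order 3 among the powers of `y`
    obtain ⟨j, hj⟩ := hZp ⟨y, hy⟩
    have hj' : y ^ 3 ^ j = 1 := congrArg Subtype.val hj
    obtain ⟨i, -, hi⟩ := (Nat.dvd_prime_pow Nat.prime_three).1 (orderOf_dvd_of_pow_eq_one hj')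
    have hi0 : i ≠ 0 := by
      rintro rfl
      rw [pow_zero, orderOf_eq_one_iff] at hi
      exact hne hi
    obtain ⟨i', rfl⟩ := Nat.exists_eq_succ_of_ne_zero hi0
    have h6 : orderOf (y ^ 3 ^ i') = 3 := by
      rw [orderOf_pow_of_dvd (pow_ne_zero _ (by norm_num)) (by rw [hi]; exact pow_dvd_pow _ (Nat.le_succ _)), hi,
        Nat.pow_div (Nat.le_succ _) (by norm_num)]
      simp
    exact hcen _ h6 ((show Commute x y from hxy).pow_right _).eq
  have hk5 : k = 5 := by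
    interval_cases k <;> omega
  subst hk5
  exact no_abelian h Z (by rw [hk]; norm_num) hab

/-- **The row `McL`.** -/
theorem row_mcl {K : Type*} [Group K] [Finite K] [IsSimpleGroup K] (h : Spor.IsoMcL K) (hOI : OI' K) (p : ℕ)
    (hp : Fact p.Prime) (hp2 : p ≠ 2) : Row p K := by
  by_cases h3 : p = 3
  · subst h3
    exact row_mcl3 h hOI
  · exact RowCo.row_mcl h hOI p hp hp2 h3

end Cfsg.Agent.H898.RowMcL
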